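import Mathlib
import Cfsg.Prelude.Def_OddOrderLocal
import Cfsg.Agent.Lib.Helper47.BG.Hyps
import Cfsg.Agent.Lib.Helper61.BG9a
import Cfsg.Agent.Lib.Helper67.BG.Basics
import Cfsg.Agent.S1451

/-!
Bender–Glauberman campaign: `M_σ ≠ 1` for every maximal subgroup `M` (from S1405 = BG 10.2 and the
landed S1451), and the membership criterion `p ∈ σ(M)` for a normal Sylow subgroup.
-/

set_option autoImplicit false

namespace Cfsg.Agent.Lib.Helper47.BG

open Cfsg

/-- A maximal subgroup of a minimal simple group is nontrivial. -/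
theorem coatom_ne_bot {G : Type*} [Group G] (hG : Cfsg.IsMinSimpleOddOrder G)
    {M : Subgroup G} (hM : IsCoatom M) : M ≠ ⊥ := by
  intro hbot
  haveI : IsSimpleGroup G := hG.2.1
  obtain ⟨x, hx⟩ := exists_ne (1 : G)
  have hlt : (⊥ : Subgroup G) < Subgroup.zpowers x := by
    rw [bot_lt_iff_ne_bot]
    intro h
    exact hx (Subgroup.zpowers_eq_bot.mp h)
  have htop : Subgroup.zpowers x = ⊤ := hM.2 _ (hbot ▸ hlt)
  apply hG.2.2.1
  refine ⟨⟨fun a b => ?_⟩⟩
  have ha : a ∈ Subgroup.zpowers x := htop ▸ Subgroup.mem_top a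
  have hb : b ∈ Subgroup.zpowers x := htop ▸ Subgroup.mem_top b
  obtain ⟨m, rfl⟩ := Subgroup.mem_zpowers_iff.mp ha
  obtain ⟨n, rfl⟩ := Subgroup.mem_zpowers_iff.mp hb
  rw [← zpow_add, ← zpow_add, add_comm]

/-- The normalizer in `G` of a nontrivial subgroup `N ≤ M` normalized by the maximal subgroup `M` is
`M`. -/
theorem normalizer_eq_of_coatom {G : Type*} [Group G] (hG : Cfsg.IsMinSimpleOddOrder G)
    {M : Subgroup G} (hM : IsCoatom M) {N : Subgroup G} (hNM : N ≤ M) (hN1 : N ≠ ⊥)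
    (hnorm : M ≤ Subgroup.normalizer (N : Set G)) : Subgroup.normalizer (N : Set G) = M := by
  haveI : IsSimpleGroup G := hG.2.1
  have hne : Subgroup.normalizer (N : Set G) ≠ ⊤ := by
    intro htop
    have hNn : N.Normal := Subgroup.normalizer_eq_top_iff.mp htop
    rcases hNn.eq_bot_or_eq_top with h | h
    · exact hN1 h
    · exact hM.1 (top_le_iff.mp (h ▸ hNM))
  by_contra hneq
  exact hne (hM.2 _ (lt_of_le_of_ne hnorm (fun h => hneq h.symm)))

/-- A nontrivial normal Sylow `q`-subgroup `N` of the maximal subgroup `M` puts `q` in `σ(M)` and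
lies in `M_σ`. -/
theorem normal_sylow_le_sigmaCore {G : Type*} [Group G] [Finite G]
    (hG : Cfsg.IsMinSimpleOddOrder G) {M : Subgroup G} (hM : IsCoatom M) {q : ℕ} [hq : Fact q.Prime]
    (N : Subgroup M) [hNn : N.Normal] (hNq : IsPGroup q N) (hNi : ¬ q ∣ N.index) (hN1 : N ≠ ⊥) :
    q ∈ Cfsg.sigma M ∧ N.map M.subtype ≤ Cfsg.sigmaCore M := by
  have hqN : q ∣ Nat.card N := by
    obtain ⟨n, hn⟩ := IsPGroup.iff_card.mp hNq
    rw [hn]
    have : n ≠ 0 := by
      intro h0
      rw [h0, pow_zero] at hn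
      exact hN1 (Subgroup.card_eq_one.mp hn)
    exact dvd_pow_self q this
  have hqM : q ∣ Nat.card M := hqN.trans (Subgroup.card_subgroup_dvd_card N)
  have hmap1 : N.map M.subtype ≠ ⊥ := by
    intro h
    exact hN1 ((Subgroup.map_eq_bot_iff_of_injective _ M.subtype_injective).mp h)
  have hnorm : M ≤ Subgroup.normalizer ((N.map M.subtype : Subgroup G) : Set G) := by
    intro x hx
    have key : ∀ y : G, y ∈ M → ∀ w, w ∈ N.map M.subtype → y * w * y⁻¹ ∈ N.map M.subtype := by
      rintro y hy _ ⟨w, hw, rfl⟩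
      exact ⟨⟨y, hy⟩ * w * ⟨y, hy⟩⁻¹, hNn.conj_mem w hw ⟨y, hy⟩, rfl⟩
    rw [Subgroup.mem_normalizer_iff]
    intro w
    constructor
    · exact key x hx w
    · intro h
      have := key x⁻¹ (M.inv_mem hx) _ h
      simpa [mul_assoc] using this
  have hNG := normalizer_eq_of_coatom hG hM (Subgroup.map_subtype_le N) hmap1 hnorm
  have hσ : q ∈ Cfsg.sigma M := by
    refine ⟨hq.out, hqM, hNq.toSylow hNi, ?_⟩
    rw [IsPGroup.toSylow_coe, hNG]
  refine ⟨hσ, ?_⟩
  unfold Cfsg.sigmaCore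
  apply Subgroup.map_mono
  unfold Cfsg.piCore
  apply le_sSup
  refine ⟨hNn, ?_⟩
  intro r hr hrN
  obtain ⟨n, hn⟩ := IsPGroup.iff_card.mp hNq
  rw [hn] at hrN
  have : r = q := (Nat.prime_dvd_prime_iff_eq hr hq.out).mp (hr.dvd_of_dvd_pow hrN)
  rw [this]; exact hσ

/-- `M_σ ≠ 1` for every maximal subgroup `M` (BG 10.2(e)-type), from S1405. -/
theorem sigmaCore_ne_bot {G : Type*} [Group G] [Finite G] (hG : Cfsg.IsMinSimpleOddOrder G)
    (h1405 : Hyp1405 G) (M : Subgroup G) (hM : IsCoatom M) : Cfsg.sigmaCore M ≠ ⊥ := by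
  obtain ⟨-, -, hle, hrank, -⟩ := h1405 M hM
  by_cases hα : Cfsg.alphaCore M = ⊥
  · have hpc : Cfsg.piCore (Cfsg.alpha M) M = ⊥ := by
      unfold Cfsg.alphaCore at hα
      exact (Subgroup.map_eq_bot_iff_of_injective _ M.subtype_injective).mp hα
    have hinj : Function.Injective (QuotientGroup.mk' (Cfsg.piCore (Cfsg.alpha M) ↥M)) := by
      rw [← MonoidHom.ker_eq_bot_iff, QuotientGroup.ker_mk', hpc]
    have hr2 : Cfsg.RankLE 2 M := by
      intro p hp
      exact Cfsg.Agent.Lib.Helper61.bg_pRankLE_of_injective _ hinj (hrank p hp)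
    haveI : Group.IsSolvable M := hG.2.2.2 M hM.1
    have hodd : Odd (Nat.card M) := by
      have h1 : Nat.card M ∣ Nat.card G := Subgroup.card_subgroup_dvd_card M
      exact Odd.of_dvd_nat hG.1 h1
    obtain ⟨-, -, htower⟩ := Cfsg.Agent.S1451.result hodd (Or.inl hr2)
    have hM1 : Nat.card M ≠ 1 := by
      intro h
      exact coatom_ne_bot hG hM (Subgroup.card_eq_one.mp h)
    -- the largest prime divisor of |M|
    have hne : (Nat.card M).primeFactors.Nonempty := by
      rw [Nat.nonempty_primeFactors]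
      have : 0 < Nat.card M := Nat.card_pos
      omega
    obtain ⟨q, hqmem, hqmax⟩ := (Nat.card M).primeFactors.exists_max_image id hne
    have hqp : q.Prime := Nat.prime_of_mem_primeFactors hqmem
    have hqM : q ∣ Nat.card M := Nat.dvd_of_mem_primeFactors hqmem
    haveI : Fact q.Prime := ⟨hqp⟩
    obtain ⟨N, hNchar, hNhall⟩ := htower (q - 1)
    haveI : N.Normal := by infer_instance
    have hNq : IsPGroup q N := by
      rw [IsPGroup.iff_card]
      have hpos : Nat.card N ≠ 0 := Nat.card_pos.ne'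
      refine ⟨(Nat.card N).primeFactorsList.length, ?_⟩
      apply Nat.eq_prime_pow_of_unique_prime_dvd hpos
      intro r hr hrN
      have h1 : q - 1 < r := (hNhall.1 r hr hrN).2
      have h2 : r ∣ Nat.card M := hrN.trans (Subgroup.card_subgroup_dvd_card N)
      have h3 : r ≤ q := hqmax r (Nat.mem_primeFactors.mpr ⟨hr, h2, Nat.card_pos.ne'⟩)
      omega
    have hNi : ¬ q ∣ N.index := hNhall.2 q hqp ⟨hqp, by have := hqp.pos; omega⟩
    have hN1 : N ≠ ⊥ := by
      intro h
      apply hNi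
      rw [h, Subgroup.index_bot]
      exact hqM
    have h := (normal_sylow_le_sigmaCore hG hM N hNq hNi hN1).2
    intro hbot
    rw [hbot, le_bot_iff] at h
    exact hN1 ((Subgroup.map_eq_bot_iff_of_injective _ M.subtype_injective).mp h)
  · intro hbot
    rw [hbot, le_bot_iff] at hle
    exact hα hle

end Cfsg.Agent.Lib.Helper47.BG
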