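import Mathlib
import Cfsg.Prelude.Def_OddOrderLocal
import Cfsg.Agent.Lib.Helper47.BG.Hyps
import Cfsg.Agent.Lib.Helper47.BG.SigmaNe
import Cfsg.Agent.Lib.Helper47.BG.S1353Core

/-!
Bender–Glauberman campaign: S1354 (Theorem I: `C_{M_σ}(K) ≠ 1` and `C_M(k) = K × C_{M_σ}(K)` for
`k ∈ K#`), from S1430 and S1405 taken as hypotheses.
-/

set_option autoImplicit false

namespace Cfsg.Agent.Lib.Helper47.BG

open Cfsg

/-- A Hall `π`-subgroup `K` of `M` contains a Sylow `p`-subgroup of `M` for every `p ∈ π`. -/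
theorem exists_sylow_le_of_isPiHallOf {G : Type*} [Group G] [Finite G] {π : Set ℕ}
    {K M : Subgroup G} (hK : Cfsg.IsPiHallOf π K M) {p : ℕ} [hp : Fact p.Prime] (hpπ : p ∈ π) :
    ∃ P : Sylow p M, ∀ x : M, x ∈ (P : Subgroup M) → (x : G) ∈ K := by
  obtain ⟨Q⟩ : Nonempty (Sylow p (K.subgroupOf M)) := inferInstance
  have hQp : IsPGroup p ((Q : Subgroup (K.subgroupOf M)).map (K.subgroupOf M).subtype) :=
    Q.2.map _
  have hidx : ¬ p ∣ ((Q : Subgroup (K.subgroupOf M)).map (K.subgroupOf M).subtype).index := by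
    rw [Subgroup.index_map_subtype]
    intro h
    rcases (Nat.Prime.dvd_mul hp.out).mp h with h | h
    · exact Q.not_dvd_index h
    · exact hK.2.2 p hp.out hpπ h
  refine ⟨hQp.toSylow hidx, ?_⟩
  intro x hx
  rw [IsPGroup.toSylow_coe] at hx
  obtain ⟨y, -, rfl⟩ := hx
  exact Subgroup.mem_subgroupOf.mp y.2

/-- S1354 from S1430 and S1405. -/
theorem s1354_core {G : Type*} [Group G] [Finite G] (hG : Cfsg.IsMinSimpleOddOrder G)
    (h1405 : Hyp1405 G) (h1430 : Hyp1430 G)
    (M : Subgroup G) (hM : IsCoatom M) (K : Subgroup G)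
    (hKc : IsCyclic K) (hK : Cfsg.IsPiHallOf (Cfsg.kappa M) K M) :
    Cfsg.sigmaCore M ⊓ Subgroup.centralizer (K : Set G) ≠ ⊥ ∧
      (K ≠ ⊥ → ∀ k ∈ K, k ≠ 1 →
        M ⊓ Subgroup.centralizer ({k} : Set G) =
          K ⊔ (Cfsg.sigmaCore M ⊓ Subgroup.centralizer (K : Set G))) := by
  constructor
  · by_cases hK1 : K = ⊥
    · subst hK1
      have hc : Subgroup.centralizer (((⊥ : Subgroup G) : Subgroup G) : Set G) = ⊤ := by
        rw [eq_top_iff]
        intro g _
        rw [Subgroup.mem_centralizer_iff]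
        intro h hh
        have : h = 1 := Subgroup.mem_bot.mp hh
        rw [this, one_mul, mul_one]
      rw [hc, inf_top_eq]
      exact sigmaCore_ne_bot hG h1405 M hM
    · obtain ⟨h1, -, -⟩ := h1430 M hM K hK hK1
      have hcard : Nat.card K ≠ 1 := fun h => hK1 (Subgroup.card_eq_one.mp h)
      obtain ⟨p, hp, hpK⟩ := Nat.exists_prime_and_dvd hcard
      haveI : Fact p.Prime := ⟨hp⟩
      have hκ : p ∈ Cfsg.kappa M := hK.2.1 p hp hpK
      obtain ⟨P, hPK⟩ := exists_sylow_le_of_isPiHallOf hK hκ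
      obtain ⟨-, x, hxP, hx1, y, hy, hy1, hxy⟩ := hκ.2.2.2 P
      have hxK : (x : G) ∈ K := hPK x hxP
      have hx1' : (x : G) ≠ 1 := fun h => hx1 (Subtype.ext h)
      have hyC : y ∈ Cfsg.sigmaCore M ⊓ Subgroup.centralizer ({(x : G)} : Set G) := by
        refine Subgroup.mem_inf.mpr ⟨hy, ?_⟩
        rw [Subgroup.mem_centralizer_iff]
        intro h hh
        rw [Set.mem_singleton_iff] at hh
        rw [hh]; exact hxy
      rw [h1 x hxK hx1'] at hyC
      intro hbot
      rw [hbot, Subgroup.mem_bot] at hyC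
      exact hy1 hyC
  · intro hK1 k hk hk1
    obtain ⟨-, -, h3⟩ := h1430 M hM K hK hK1
    obtain ⟨X, hXk, hXp⟩ := exists_prime_card_le_zpowers hk1
    have hXK : X ≤ K := hXk.trans ((Subgroup.zpowers_le).mpr hk)
    obtain ⟨hN, -, -⟩ := h3 X hXK hXp
    apply le_antisymm
    · rintro u ⟨huM, huC⟩
      have huN : u ∈ M ⊓ Subgroup.normalizer (X : Set G) :=
        ⟨huM, centralizer_singleton_le_normalizer_of_le_zpowers hXk huC⟩
      rw [hN] at huN
      exact huN
    · apply sup_le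
      · intro a ha
        refine Subgroup.mem_inf.mpr ⟨hK.1 ha, ?_⟩
        rw [Subgroup.mem_centralizer_iff]
        intro h hh
        rw [Set.mem_singleton_iff] at hh
        rw [hh]
        obtain ⟨g, hg⟩ := hKc.exists_generator
        obtain ⟨m, hm⟩ := Subgroup.mem_zpowers_iff.mp (hg ⟨k, hk⟩)
        obtain ⟨n, hn⟩ := Subgroup.mem_zpowers_iff.mp (hg ⟨a, ha⟩)
        have hm' : ((g : G)) ^ m = k := by
          have := congrArg Subtype.val hm
          simpa using this
        have hn' : ((g : G)) ^ n = a := by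
          have := congrArg Subtype.val hn
          simpa using this
        rw [← hm', ← hn', ← zpow_add, ← zpow_add, add_comm]
      · rintro u ⟨huS, huC⟩
        refine Subgroup.mem_inf.mpr ⟨Cfsg.Agent.Lib.Helper67.BG.sigmaCore_le M huS, ?_⟩
        exact Subgroup.centralizer_le (Set.singleton_subset_iff.mpr hk) huC

end Cfsg.Agent.Lib.Helper47.BG
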